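import Mathlib
import Cfsg.Agent.Lib.Helper51.Zass.Defs
import Cfsg.Agent.Lib.Helper67.SylowLemmas

set_option autoImplicit false

/-! ZASS (S0690) package [CONJ] (helper46). -/

namespace Cfsg.Agent.Lib.Helper46.Zass

open Cfsg.Agent.Lib.Helper51.Zass

universe u

/-- a `3`-subgroup of a f.p.f. group contains at most one subgroup of order 3. -/
theorem unique_order3_in_pgroup (hC : PkgComm3.{u}) (G : Type u) [Group G] [Finite G]
    (hG : IsFpfLin G) (S : Subgroup G) (hS : IsPGroup 3 S) (P P' : Subgroup G)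
    (hP : Nat.card P = 3) (hP' : Nat.card P' = 3) (hPS : P ≤ S) (hP'S : P' ≤ S) : P = P' := by
  have h3 : Fact (Nat.Prime 3) := ⟨Nat.prime_three⟩
  have hPnt : Nontrivial ↥P := Finite.one_lt_card_iff_nontrivial.mp (by rw [hP]; norm_num)
  have hSnt : Nontrivial ↥S := by
    obtain ⟨x, y, hxy⟩ := hPnt
    exact ⟨⟨⟨x.1, hPS x.2⟩, ⟨y.1, hPS y.2⟩, fun h => hxy (Subtype.ext (congrArg
      (fun w : ↥S => (w : G)) h))⟩⟩
  have hcnt : Nontrivial ↥(Subgroup.center ↥S) := hS.center_nontrivial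
  have hcp : IsPGroup 3 ↥(Subgroup.center ↥S) := hS.to_subgroup _
  obtain ⟨n, hn⟩ := IsPGroup.iff_card.mp hcp
  have hn0 : n ≠ 0 := by
    rintro rfl
    have := Finite.one_lt_card_iff_nontrivial.mpr hcnt
    rw [hn] at this
    simp at this
  obtain ⟨z, hz⟩ := exists_prime_orderOf_dvd_card' (G := ↥(Subgroup.center ↥S)) 3
    (by rw [hn]; exact dvd_pow_self 3 hn0)
  have hz3 : orderOf (((z : ↥S) : G)) = 3 := by
    rw [Subgroup.orderOf_coe, Subgroup.orderOf_coe]; exact hz
  have key : ∀ R : Subgroup G, Nat.card R = 3 → R ≤ S →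
      R = Subgroup.zpowers (((z : ↥S) : G)) := by
    intro R hR hRS
    apply Subgroup.eq_of_le_of_card_ge
    · intro x hx
      by_cases hx1 : x = 1
      · rw [hx1]; exact Subgroup.one_mem _
      · have hdvd : orderOf x ∣ 3 := by
          have := orderOf_dvd_natCard (⟨x, hx⟩ : ↥R)
          rwa [Subgroup.orderOf_mk, hR] at this
        have hx3 : orderOf x = 3 := by
          rcases (Nat.Prime.eq_one_or_self_of_dvd Nat.prime_three _ hdvd) with h | h
          · exact absurd (orderOf_eq_one_iff.mp h) hx1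
          · exact h
        have hcomm : ((z : ↥S) : G) * x = x * ((z : ↥S) : G) := by
          have := Subgroup.mem_center_iff.mp z.2 ⟨x, hRS hx⟩
          exact (congrArg (fun w : ↥S => (w : G)) this).symm
        rcases hC G hG _ x hz3 hx3 hcomm with h | h
        · rw [h]; exact Subgroup.mem_zpowers _
        · rw [h]; exact Subgroup.inv_mem _ (Subgroup.mem_zpowers _)
    · rw [Nat.card_zpowers, hz3, hR]
  rw [key P hP hPS, key P' hP' hP'S]

/-- [CONJ] -/
theorem pkgConj (hC : PkgComm3.{u}) : PkgConj.{u} := by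
  intro G _ _ hG P Q hP hQ
  have h3 : Fact (Nat.Prime 3) := ⟨Nat.prime_three⟩
  have hPp : IsPGroup 3 P := IsPGroup.of_card (n := 1) (by rw [hP]; norm_num)
  have hQp : IsPGroup 3 Q := IsPGroup.of_card (n := 1) (by rw [hQ]; norm_num)
  obtain ⟨S₁, hS₁⟩ := hPp.exists_le_sylow
  obtain ⟨S₂, hS₂⟩ := hQp.exists_le_sylow
  obtain ⟨g, hg⟩ := MulAction.exists_smul_eq G S₁ S₂
  refine ⟨g, ?_⟩
  have hcard : Nat.card ↥(P.map (MulAut.conj g).toMonoidHom) = 3 := by
    rw [Subgroup.card_map_of_injective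
      (show Function.Injective ⇑(MulAut.conj g).toMonoidHom from (MulAut.conj g).injective)]
    exact hP
  have hle : P.map (MulAut.conj g).toMonoidHom ≤ (S₂ : Subgroup G) := by
    intro x hx
    obtain ⟨y, hy, rfl⟩ := Subgroup.mem_map.mp hx
    rw [← hg, Cfsg.Agent.Lib.Helper67.mem_smul_sylow_iff]
    have : g⁻¹ * (MulAut.conj g).toMonoidHom y * g = y := by
      show g⁻¹ * (g * y * g⁻¹) * g = y
      group
    rw [this]
    exact hS₁ hy
  exact unique_order3_in_pgroup hC G hG (S₂ : Subgroup G) S₂.isPGroup' Q _ hQ hcard hS₂ hle
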